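import Cfsg.Agent.TwoF.XS.Red.Sp
import Cfsg.Agent.H203.OrthHeis
import Cfsg.Agent.S0292
import Cfsg.Agent.S0293
import Cfsg.Agent.S0294
import Cfsg.Agent.S0816
import Cfsg.Agent.S0817
import Cfsg.Agent.S0818
import Cfsg.Agent.S2094
import Cfsg.Agent.S2095
import Cfsg.Agent.S2096
import Cfsg.Agent.S2097
import Cfsg.Agent.S2098
import Cfsg.Agent.S2099

/-!
# TwoF / XS, the reduction (3): orthogonal groups, `red` (helper23)
-/

set_option autoImplicit false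

namespace Cfsg.Agent.TwoF.XS.Red

open Cfsg.Agent.TwoF.XE Cfsg.Agent.TwoF.Gen

variable {p : ℕ} [Fact p.Prime]

theorem eq_div {a b c : ℕ} (ha : 0 < a) (h : a * b = c) : b = c / a := by rw [← h, Nat.mul_div_cancel_left _ ha]

theorem pow_le_bd {q m e : ℕ} (hq : 2 ≤ q) (h : m ≤ e) : q ^ m ≤ 2 * ((q - 1) * q ^ e) + 2 := by
  have h1 := Nat.pow_le_pow_right (show 0 < q by omega) h
  have h2 : 1 * q ^ e ≤ (q - 1) * q ^ e := Nat.mul_le_mul_right _ (by omega)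
  omega

/-! ### odd dimension -/

/-- the dimension bound -/
def dB (m q : ℕ) : ℕ := if m = 3 ∧ q = 3 then 0 else (q - 1) * q ^ (2 * m - 3)
/-- the multiplier -/
def zB (m q : ℕ) : ℕ := if m = 3 ∧ q = 3 then 6 else 2

set_option synthInstance.maxSize 100000 in
set_option synthInstance.maxHeartbeats 400000 in
theorem tab_odd : ∀ r ∈ [2, 3, 5, 7, 11, 13, 17, 19, 23, 29, 31], ∀ f < 5, ∀ m < 10, 1 ≤ f → 3 ≤ m → (r ^ f) ^ m < 1024 →
    r ≠ 2 → big (dB m (r ^ f)) (zB m (r ^ f)) (nSp m (r ^ f) / 2) (2 * f) = true ∧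
      ∀ t ∈ [2, 3, 5, 7, 11, 13, 17, 19, 23], t = r ∨ ok (dB m (r ^ f)) (zB m (r ^ f)) (nSp m (r ^ f) / 2) (2 * f) t = true ∨
        (t = 2 ∧ m = 3 ∧ r ^ f = 3) := by
  decide +kernel

theorem dt_odd {F : Type} [Field F] [Fintype F] {r f m : ℕ} (hr : r.Prime) [CharP F r] (hf : 1 ≤ f)
    (hF : Fintype.card F = r ^ f) (hm : 3 ≤ m) (h2 : r ≠ 2) (hrp : r ≠ p)
    (hc : Subgroup.center (POmega F (quadFormOdd m F)) = ⊥) :
    Dt p (POmega F (quadFormOdd m F)) (dB m (r ^ f)) (zB m (r ^ f)) (nSp m (r ^ f) / 2) (2 * f) := by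
  have : Fact r.Prime := ⟨hr⟩
  have ho := hr.odd_of_ne_two h2
  have hs := eq_div two_pos (S0292.result hF ho.pow m hm)
  have hz : ∀ (K : Type) [Group K] [Finite K] (π : K →* POmega F (quadFormOdd m F)), IsStemExtension π →
      Nat.card π.ker ∣ zB m (r ^ f) := fun K _ _ π hπ => by
    unfold zB
    split_ifs with h
    · obtain ⟨rfl, h⟩ := h
      exact card_ker_dvd' (S2095.result (hF.trans h)) K π hπ
    · exact card_ker_dvd' (S2094.result hF ho.pow m hm h) K π hπ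
  refine ⟨?_, hz, by unfold zB; split_ifs <;> omega, hs, hs ▸ S0816.result r f hf hF ho m hm, hc⟩
  unfold dB
  split_ifs with h
  · exact lb_zero
  refine lb_of_mult ?_ hz (r := r) (by rw [zB, if_neg h]; exact (Nat.coprime_primes Nat.prime_two hr).2 h2.symm)
  exact hF ▸ H203.OrthHeis.bd_pomega_odd_heis hr (cast_ne_zero hr hrp) hF
    (Ring.two_ne_zero (by rwa [ringChar.eq F r])) hm

theorem box_odd (H : Small) : Box fun K _ => IsPOmegaOdd K := by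
  rintro p _ S _ _ _ ⟨F, _, _, m, hm, h2, ⟨e⟩⟩ hp -
  obtain ⟨r, f, hr, hc, hf, hF⟩ := exists_char F
  have hrp : r ≠ p := by
    rintro rfl
    exact hp (.inr <| .inr <| .inr <| .inl ⟨F, _, _, hc, m, hm, h2, ⟨e⟩⟩)
  have hr2 : r ≠ 2 := by
    rintro rfl
    rw [hF] at h2
    exact absurd (Nat.odd_iff.1 ((Nat.odd_pow_iff (by omega)).1 h2)) (by norm_num)
  have : IsSimpleGroup (POmega F (quadFormOdd m F)) := e.symm.isSimpleGroup
  have : Finite (POmega F (quadFormOdd m F)) := Finite.of_equiv _ e.toEquiv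
  refine Row.of_equiv (row_of_center fun hZ => ?_) e
  have D := dt_odd hr hf hF hm hr2 hrp hZ
  have hq : 2 ≤ r ^ f := hF ▸ Fintype.one_lt_card
  by_cases hQ : 1024 ≤ (r ^ f) ^ m
  · have h33 : ¬ (m = 3 ∧ r ^ f = 3) := fun h => by rw [h.1, h.2] at hQ; omega
    refine D.row_gen hq hQ ?_ (by rw [dB, if_neg h33]; exact pow_le_bd hq (by omega))
    rw [zB, if_neg h33]
    calc _ ≤ (r ^ f) ^ (2 * m ^ 2 + m) * (r ^ f) ^ 1 :=
          Nat.mul_le_mul ((Nat.mul_div_le _ _).trans (nSp_le _ _)) ((two_mul_le hr.two_le).trans (pow_one _).ge)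
      _ ≤ _ := by rw [← pow_add]; exact Nat.pow_le_pow_right (by omega) (by omega)
  obtain ⟨h3, h4, h5⟩ := small_range hr hf (by omega) (not_le.1 hQ)
  refine (D.row_or hrp (tab_odd r h3 f h4 m h5 hf hm (not_le.1 hQ) hr2)).elim id ?_
  rintro ⟨rfl, rfl, h⟩
  exact H.o73 F (hF.trans h)

/-! ### even dimension -/

/-- the order up to the centre, `a = q ^ m ∓ 1` -/
def nD (m q a : ℕ) : ℕ := q ^ (m * (m - 1)) * a * ∏ i ∈ Finset.range (m - 1), (q ^ (2 * (i + 1)) - 1)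

theorem gen_D {m q a g z o f : ℕ} (hm : 4 ≤ m) (hq : 2 ≤ q) (ha : a ≤ q ^ m + 1) (hz : z ≤ 4) (ho : o ≤ 24 * f)
    (hf : 2 * f ≤ q) : z * (nD m q a / g) * o ≤ q ^ (2 * m ^ 2 + 2 * m) := by
  obtain ⟨n, rfl⟩ : ∃ n, m = n + 1 := ⟨m - 1, by omega⟩
  have h1 : 2 ^ 2 ≤ q ^ 2 := Nat.pow_le_pow_left hq 2
  have h2 : 2 ^ 4 * q ≤ q ^ 4 * q := Nat.mul_le_mul_right _ (Nat.pow_le_pow_left hq 4)
  calc _ ≤ q ^ 2 * (q ^ ((n + 1) * n) * q ^ (n + 1 + 1) * q ^ (n ^ 2 + n)) * (q ^ 4 * q) :=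
        Nat.mul_le_mul (Nat.mul_le_mul (by omega) ((Nat.div_le_self _ _).trans (Nat.mul_le_mul
          (Nat.mul_le_mul_left _ (ha.trans (pow_add_one_le hq _))) (prod_le q n)))) (by omega)
    _ = q ^ (2 * n ^ 2 + 3 * n + 9) := by ring
    _ ≤ _ := Nat.pow_le_pow_right (by omega) (by nlinarith)

/-- the dimension bound -/
def dP (m q : ℕ) : ℕ := if m = 4 ∧ q = 2 then 0 else (q - 1) * q ^ (2 * m - 4)
/-- the multiplier -/
def zP (m q : ℕ) : ℕ :=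
  if m = 4 ∧ q = 2 then 4 else if Even m then Nat.gcd 2 (q ^ m - 1) * Nat.gcd 2 (q ^ m - 1) else Nat.gcd 4 (q ^ m - 1)
/-- the outer automorphisms -/
def oP (m r f : ℕ) : ℕ :=
  (if m = 4 then 3 else 1) * (if r = 2 then 2 else (if Even (m * (r ^ f - 1) / 2) then 8 else 4)) * f
/-- the outer automorphisms -/
def oM (m r f : ℕ) : ℕ := (if r = 2 then 2 else (if Even (m * (r ^ f - 1) / 2) then 4 else 8)) * f

set_option synthInstance.maxSize 100000 in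
set_option synthInstance.maxHeartbeats 400000 in
theorem tab_plus : ∀ r ∈ [2, 3, 5, 7, 11, 13, 17, 19, 23, 29, 31], ∀ f < 5, ∀ m < 10, 1 ≤ f → 4 ≤ m → (r ^ f) ^ m < 1024 →
    big (dP m (r ^ f)) (zP m (r ^ f)) (nD m (r ^ f) ((r ^ f) ^ m - 1) / Nat.gcd 4 ((r ^ f) ^ m - 1)) (oP m r f) = true ∧
      ∀ t ∈ [2, 3, 5, 7, 11, 13, 17, 19, 23], t = r ∨ ok (dP m (r ^ f)) (zP m (r ^ f))
        (nD m (r ^ f) ((r ^ f) ^ m - 1) / Nat.gcd 4 ((r ^ f) ^ m - 1)) (oP m r f) t = true ∨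
        (m = 4 ∧ r ^ f = 2 ∧ (t = 3 ∨ (t = 5 ∧ ¬ t ∣ oP m r f))) := by
  decide +kernel

set_option synthInstance.maxSize 100000 in
set_option synthInstance.maxHeartbeats 400000 in
theorem tab_minus : ∀ r ∈ [2, 3, 5, 7, 11, 13, 17, 19, 23, 29, 31], ∀ f < 5, ∀ m < 10, 1 ≤ f → 4 ≤ m → (r ^ f) ^ m < 1024 →
    big ((r ^ f - 1) * (r ^ f) ^ (2 * m - 4)) (Nat.gcd 4 ((r ^ f) ^ m + 1))
      (nD m (r ^ f) ((r ^ f) ^ m + 1) / Nat.gcd 4 ((r ^ f) ^ m + 1)) (oM m r f) = true ∧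
      ∀ t ∈ [2, 3, 5, 7, 11, 13, 17, 19, 23], t = r ∨ ok ((r ^ f - 1) * (r ^ f) ^ (2 * m - 4)) (Nat.gcd 4 ((r ^ f) ^ m + 1))
        (nD m (r ^ f) ((r ^ f) ^ m + 1) / Nat.gcd 4 ((r ^ f) ^ m + 1)) (oM m r f) t = true ∨
        (m = 4 ∧ r ^ f = 2 ∧ t = 3 ∧ ¬ t ∣ oM m r f) := by
  decide +kernel

theorem card_prod (a : ℕ) : Nat.card (Multiplicative (ZMod a × ZMod a)) = a * a := by
  rw [Nat.card_congr Multiplicative.toAdd, Nat.card_prod, Nat.card_zmod]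

theorem dt_plus {F : Type} [Field F] [Fintype F] {r f m : ℕ} (hr : r.Prime) (hf : 1 ≤ f)
    (hF : Fintype.card F = r ^ f) (hm : 4 ≤ m) (hrp : r ≠ p)
    (hc : Subgroup.center (POmega F (quadFormPlus m F)) = ⊥) :
    Dt p (POmega F (quadFormPlus m F)) (dP m (r ^ f)) (zP m (r ^ f))
      (nD m (r ^ f) ((r ^ f) ^ m - 1) / Nat.gcd 4 ((r ^ f) ^ m - 1)) (oP m r f) := by
  have : Fact r.Prime := ⟨hr⟩
  have hs := eq_div (Nat.gcd_pos_of_pos_left _ four_pos) (S0293.result hF m hm)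
  have hz : ∀ (K : Type) [Group K] [Finite K] (π : K →* POmega F (quadFormPlus m F)), IsStemExtension π →
      Nat.card π.ker ∣ zP m (r ^ f) := fun K _ _ π hπ => by
    unfold zP
    split_ifs with h h'
    · obtain ⟨rfl, h⟩ := h
      exact (card_ker_dvd (S2098.result (hF.trans h)) K π hπ).trans (card_prod 2).dvd
    · exact (card_ker_dvd (S2097.result hF m hm h' h) K π hπ).trans (card_prod _).dvd
    · exact card_ker_dvd' (S2096.result hF m (by rw [Nat.even_iff] at h'; omega) (Nat.not_even_iff_odd.1 h')) K π hπ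
  refine ⟨?_, hz, ?_, hs, hs ▸ S0817.result r f hf hF m hm, hc⟩
  · unfold dP
    split_ifs with h
    · exact lb_zero
    refine lb_of_mult (hF ▸ H203.OrthHeis.bd_pomega_plus_heis hr (cast_ne_zero hr hrp) hF hm) hz ?_
    rw [zP, if_neg h]
    split_ifs
    · exact Nat.Coprime.mul_left (cop_sub hr hf (by omega)) (cop_sub hr hf (by omega))
    · exact cop_sub hr hf (by omega)
  · unfold zP
    split_ifs <;> positivity

theorem box_plus (H : Small) : Box fun K _ => IsPOmegaPlus K := by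
  rintro p _ S _ _ _ ⟨F, _, _, m, hm, ⟨e⟩⟩ hp -
  obtain ⟨r, f, hr, hc, hf, hF⟩ := exists_char F
  have hrp : r ≠ p := by
    rintro rfl
    exact hp (.inr <| .inr <| .inr <| .inr <| .inl ⟨F, _, inferInstance, hc, m, hm, ⟨e⟩⟩)
  have : IsSimpleGroup (POmega F (quadFormPlus m F)) := e.symm.isSimpleGroup
  have : Finite (POmega F (quadFormPlus m F)) := Finite.of_equiv _ e.toEquiv
  refine Row.of_equiv (row_of_center fun hZ => ?_) e
  have D := dt_plus hr hf hF hm hrp hZ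
  have hq : 2 ≤ r ^ f := hF ▸ Fintype.one_lt_card
  by_cases hQ : 1024 ≤ (r ^ f) ^ m
  · have h42 : ¬ (m = 4 ∧ r ^ f = 2) := fun h => by rw [h.1, h.2] at hQ; omega
    refine D.row_gen hq hQ (gen_D hm hq (by omega) ?_ ?_ (two_mul_le hr.two_le))
      (by rw [dP, if_neg h42]; exact pow_le_bd hq (by omega))
    · rw [zP, if_neg h42]
      split_ifs
      · exact Nat.mul_le_mul (gcd_two_le _) (gcd_two_le _)
      · exact Nat.gcd_le_left _ four_pos
    · refine Nat.mul_le_mul_right _ ?_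
      split_ifs <;> omega
  obtain ⟨h3, h4, h5⟩ := small_range hr hf (by omega) (not_le.1 hQ)
  refine (D.row_or hrp (tab_plus r h3 f h4 m h5 hf hm (not_le.1 hQ))).elim id ?_
  rintro ⟨rfl, h, rfl | ⟨h6, h7⟩⟩
  · exact H.o8p F (hF.trans h)
  · exact ⟨(H.five p F h6).2.2 (hF.trans h), D.row89 h7⟩

theorem dt_minus {F : Type} [Field F] [Fintype F] {r f m : ℕ} (hr : r.Prime) (hf : 1 ≤ f)
    (hF : Fintype.card F = r ^ f) (hm : 4 ≤ m) (hrp : r ≠ p) {a b : F}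
    (hab : ∀ z₁ z₂ : F, z₁ ^ 2 + a * z₁ * z₂ + b * z₂ ^ 2 = 0 → z₁ = 0 ∧ z₂ = 0)
    (hc : Subgroup.center (POmega F (quadFormMinus (m - 1) F a b)) = ⊥) :
    Dt p (POmega F (quadFormMinus (m - 1) F a b)) ((r ^ f - 1) * (r ^ f) ^ (2 * m - 4)) (Nat.gcd 4 ((r ^ f) ^ m + 1))
      (nD m (r ^ f) ((r ^ f) ^ m + 1) / Nat.gcd 4 ((r ^ f) ^ m + 1)) (oM m r f) := by
  have : Fact r.Prime := ⟨hr⟩
  have hs := eq_div (Nat.gcd_pos_of_pos_left _ four_pos) (S0294.result hF m hm a b hab)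
  have hz := card_ker_dvd' (S2099.result hF m hm a b hab)
  refine ⟨lb_of_mult (hF ▸ H203.OrthHeis.bd_pomega_minus_heis hr (cast_ne_zero hr hrp) hF hm hab) hz ?_, hz,
    Nat.gcd_pos_of_pos_left _ four_pos, hs, hs ▸ S0818.result r f hf hF m hm a b hab, hc⟩
  refine Nat.Coprime.coprime_dvd_left (Nat.gcd_dvd_right _ _) (Nat.Coprime.symm ((Nat.Prime.coprime_iff_not_dvd hr).2
    fun h => hr.one_lt.ne' (Nat.dvd_one.1 ?_)))
  exact (Nat.dvd_add_right ((dvd_pow_self r (by omega)).trans (dvd_pow_self _ (by omega)))).1 h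

theorem box_minus (H : Small) : Box fun K _ => IsPOmegaMinus K := by
  rintro p _ S _ _ _ ⟨F, _, _, m, a, b, hm, hab, ⟨e⟩⟩ hp -
  obtain ⟨r, f, hr, hc, hf, hF⟩ := exists_char F
  have hrp : r ≠ p := by
    rintro rfl
    exact hp (.inr <| .inr <| .inr <| .inr <| .inr <| .inl ⟨F, _, inferInstance, hc, m, a, b, hm, hab, ⟨e⟩⟩)
  have : IsSimpleGroup (POmega F (quadFormMinus (m - 1) F a b)) := e.symm.isSimpleGroup
  have : Finite (POmega F (quadFormMinus (m - 1) F a b)) := Finite.of_equiv _ e.toEquiv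
  refine Row.of_equiv (row_of_center fun hZ => ?_) e
  have D := dt_minus hr hf hF hm hrp hab hZ
  have hq : 2 ≤ r ^ f := hF ▸ Fintype.one_lt_card
  by_cases hQ : 1024 ≤ (r ^ f) ^ m
  · refine D.row_gen hq hQ (gen_D hm hq le_rfl (Nat.gcd_le_left _ four_pos) (Nat.mul_le_mul_right _ ?_)
      (two_mul_le hr.two_le)) (pow_le_bd hq (by omega))
    split_ifs <;> omega
  obtain ⟨h3, h4, h5⟩ := small_range hr hf (by omega) (not_le.1 hQ)
  refine (D.row_or hrp (tab_minus r h3 f h4 m h5 hf hm (not_le.1 hQ))).elim id ?_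
  rintro ⟨rfl, h, rfl, h7⟩
  exact ⟨H.o8m F a b (hF.trans h) hab, D.row89 h7⟩

end Cfsg.Agent.TwoF.XS.Red

/-- **the reduction to the small rows** -/
theorem Cfsg.Agent.TwoF.XS.red : Cfsg.Agent.TwoF.XS.Red := fun H =>
  ⟨Cfsg.Agent.TwoF.XS.Red.box_psp H, Cfsg.Agent.TwoF.XS.Red.box_odd H, Cfsg.Agent.TwoF.XS.Red.box_plus H,
    Cfsg.Agent.TwoF.XS.Red.box_minus H⟩
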