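import Cfsg.Agent.TwoF.XS.Red.Dt
import Cfsg.Agent.TwoF.XS.Defs
import Cfsg.Agent.H175.BdSp
import Cfsg.Agent.S0245
import Cfsg.Agent.S0246
import Cfsg.Agent.S0814
import Cfsg.Agent.S0822
import Cfsg.Agent.S2092
import Cfsg.Agent.S2093

/-!
# TwoF / XS, the reduction (2): symplectic groups (helper23)
-/

set_option autoImplicit false

namespace Cfsg.Agent.TwoF.XS.Red

open Cfsg.Agent.TwoF.XE Cfsg.Agent.TwoF.Gen

/-- the dimension bound -/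
def dSp (m r q : ℕ) : ℕ := if m = 3 ∧ q = 2 then 0 else if r = 2 then q ^ m - 1 else (q ^ m - 1) / 2
/-- the multiplier -/
def zSp (m q : ℕ) : ℕ := if m = 3 ∧ q = 2 then 2 else Nat.gcd 2 (q - 1)
/-- the order of the symplectic group -/
def nSp (m q : ℕ) : ℕ := q ^ (m ^ 2) * ∏ i ∈ Finset.range m, (q ^ (2 * (i + 1)) - 1)
/-- the outer automorphisms -/
def oSp (m r f : ℕ) : ℕ := (if m = 2 ∧ r = 2 then 2 else 1) * Nat.gcd 2 (r ^ f - 1) * f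

/-- the survivors -/
def ESp (m q o p : ℕ) : Prop :=
  (p = 2 ∧ m = 2 ∧ q = 3) ∨
  (p = 2 ∧ ((m = 2 ∧ (q = 5 ∨ q = 7 ∨ q = 9 ∨ q = 11)) ∨ (m = 3 ∧ (q = 3 ∨ q = 5)) ∨ ((m = 4 ∨ m = 5) ∧ q = 3))) ∨
  (¬ p ∣ o ∧ ((p = 3 ∧ m = 3 ∧ q = 2) ∨ (q = 2 ∧ 4 ≤ m ∧ m ≤ 7 ∧ (p = 3 ∨ p = 5)) ∨
    (p = 5 ∧ ((m = 2 ∧ (q = 4 ∨ q = 7)) ∨ (m = 4 ∧ q = 3)))))

set_option synthInstance.maxSize 100000 in
set_option synthInstance.maxHeartbeats 400000 in
theorem tab_sp : ∀ r ∈ [2, 3, 5, 7, 11, 13, 17, 19, 23, 29, 31], ∀ f < 5, ∀ m < 10, 1 ≤ f → 2 ≤ m → (r ^ f) ^ m < 1024 →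
    (m = 2 → 3 ≤ r ^ f) →
    big (dSp m r (r ^ f)) (zSp m (r ^ f)) (nSp m (r ^ f) / Nat.gcd 2 (r ^ f - 1)) (oSp m r f) = true ∧
      ∀ t ∈ [2, 3, 5, 7, 11, 13, 17, 19, 23], t = r ∨
        ok (dSp m r (r ^ f)) (zSp m (r ^ f)) (nSp m (r ^ f) / Nat.gcd 2 (r ^ f - 1)) (oSp m r f) t = true ∨
        ESp m (r ^ f) (oSp m r f) t := by
  unfold ESp
  decide +kernel

theorem nSp_le (m q : ℕ) : nSp m q ≤ q ^ (2 * m ^ 2 + m) := by
  rw [show 2 * m ^ 2 + m = m ^ 2 + (m ^ 2 + m) by ring, pow_add]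
  exact Nat.mul_le_mul_left _ (prod_le q m)

theorem cop_sub {r f m a : ℕ} (hr : r.Prime) (hf : 1 ≤ f) (hm : 1 ≤ m) : (Nat.gcd a ((r ^ f) ^ m - 1)).Coprime r := by
  refine Nat.Coprime.coprime_dvd_left (Nat.gcd_dvd_right _ _) (Nat.Coprime.symm ((Nat.Prime.coprime_iff_not_dvd hr).2
    fun h => hr.one_lt.ne' (Nat.dvd_one.1 ?_)))
  exact (Nat.dvd_sub_iff_right (Nat.one_le_pow _ _ (pow_pos hr.pos _))
    ((dvd_pow_self r (by omega)).trans (dvd_pow_self _ (by omega)))).1 h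

variable {p : ℕ} [Fact p.Prime]

theorem dt_sp {F : Type} [Field F] [Fintype F] {r f m : ℕ} (hr : r.Prime) [CharP F r] (hf : 1 ≤ f)
    (hF : Fintype.card F = r ^ f) (hm : 2 ≤ m) (h2 : m = 2 → 3 ≤ r ^ f) (hrp : r ≠ p)
    (hc : Subgroup.center (PSp m F) = ⊥) :
    Dt p (PSp m F) (dSp m r (r ^ f)) (zSp m (r ^ f)) (nSp m (r ^ f) / Nat.gcd 2 (r ^ f - 1)) (oSp m r f) := by
  have : Fact r.Prime := ⟨hr⟩
  have hg : 0 < Nat.gcd 2 (r ^ f - 1) := Nat.gcd_pos_of_pos_left _ two_pos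
  have hs : Nat.card (PSp m F) = nSp m (r ^ f) / Nat.gcd 2 (r ^ f - 1) := by
    rw [nSp, ← S0245.result hF m, Subgroup.card_eq_card_quotient_mul_card_subgroup
      (Subgroup.center (Matrix.symplecticGroup (Fin m) F)), S0246.result hF m (by omega), Nat.mul_div_cancel _ hg]
  have hz : ∀ (K : Type) [Group K] [Finite K] (π : K →* PSp m F), IsStemExtension π →
      Nat.card π.ker ∣ zSp m (r ^ f) := fun K _ _ π hπ => by
    unfold zSp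
    split_ifs with h
    · obtain ⟨rfl, h⟩ := h
      exact card_ker_dvd' (S2093.result (hF.trans h)) K π hπ
    · exact card_ker_dvd' (S2092.result hF m hm h2 h) K π hπ
  refine ⟨?_, hz, by unfold zSp; split_ifs; exacts [two_pos, hg], hs, hs ▸ S0814.result r f hf hF m hm h2, hc⟩
  unfold dSp
  split_ifs with h h'
  · exact lb_zero
  all_goals
    refine lb_of_mult ?_ hz (r := r) (by rw [zSp, if_neg h, ← pow_one (r ^ f)]; exact cop_sub hr hf le_rfl)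
  · subst h'
    exact H175.BdSp.bd_psp_even hF (by omega) (by exact_mod_cast cast_ne_zero hr hrp) (MulEquiv.refl _)
  · exact H175.BdSp.bd_psp hr hF (by omega) (cast_ne_zero hr hrp) (MulEquiv.refl _)

theorem box_psp (H : Small) : Box fun K _ => IsPSp K := by
  rintro p _ S _ _ _ ⟨F, _, _, m, hm, h2, ⟨e⟩⟩ hp -
  obtain ⟨r, f, hr, hc, hf, hF⟩ := exists_char F
  have hrp : r ≠ p := by
    rintro rfl
    exact hp (.inr <| .inl ⟨F, _, _, hc, m, hm, h2, ⟨e⟩⟩)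
  have : IsSimpleGroup (PSp m F) := e.symm.isSimpleGroup
  refine Row.of_equiv (row_of_center fun hZ => ?_) e
  have D := dt_sp hr hf hF hm (hF ▸ h2) hrp hZ
  have hq : 2 ≤ r ^ f := hF ▸ Fintype.one_lt_card
  by_cases hQ : 1024 ≤ (r ^ f) ^ m
  · have h32 : ¬ (m = 3 ∧ r ^ f = 2) := fun h => by rw [h.1, h.2] at hQ; omega
    refine D.row_gen hq hQ ?_ (by rw [dSp, if_neg h32]; split_ifs <;> omega)
    rw [zSp, if_neg h32]
    have h3 : oSp m r f ≤ (r ^ f) ^ 2 := by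
      have h4 := two_mul_le (f := f) hr.two_le
      have h5 := gcd_two_le (r ^ f - 1)
      have h6 : oSp m r f ≤ 2 * 2 * f := by unfold oSp; gcongr; split_ifs <;> omega
      nlinarith
    calc _ ≤ (r ^ f) ^ (2 * m ^ 2 + m) * (r ^ f) ^ 2 :=
          Nat.mul_le_mul ((Nat.mul_div_le _ _).trans (nSp_le _ _)) h3
      _ ≤ _ := by rw [← pow_add]; exact Nat.pow_le_pow_right (by omega) (by omega)
  obtain ⟨h3, h4, h5⟩ := small_range hr hf hm (not_le.1 hQ)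
  refine (D.row_or hrp (tab_sp r h3 f h4 m h5 hf hm (not_le.1 hQ) (hF ▸ h2))).elim id ?_
  rw [← hF]
  rintro (⟨rfl, rfl, h⟩ | ⟨rfl, h⟩ | ⟨h0, h⟩)
  · let _ : Fintype (GaloisField 2 2) := Fintype.ofFinite _
    have h4 : Fintype.card (GaloisField 2 2) = 2 ^ 2 := by
      rw [← Nat.card_eq_fintype_card]; exact GaloisField.card 2 2 two_ne_zero
    obtain ⟨e'⟩ := S0822.result h4 h
    exact (hp (.inr <| .inr <| .inl ⟨GaloisField 2 2, _, _, inferInstance, 4, 2, h4, by omega, by omega,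
      ⟨e.trans e'.symm⟩⟩)).elim
  · exact H.p2 F m h
  refine ⟨?_, D.row89 h0⟩
  rcases h with ⟨rfl, rfl, h⟩ | ⟨h, h6, h7, h8⟩ | ⟨h6, ⟨rfl, h⟩ | ⟨rfl, h⟩⟩
  · exact H.sp62 F h
  · exact H.sp2 p F m h h6 h7 h8
  · exact (H.five p F h6).1 h
  · exact (H.five p F h6).2.1 h

end Cfsg.Agent.TwoF.XS.Red
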